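import Groth.Agent.S0002
import Groth.Agent.CohqA.H1Lift
import Groth.Agent.CurvesB.GenSurj
import Groth.Agent.CurvesB.PushH1
import Groth.Agent.CurvesB.UnitCoh
import Groth.Agent.CurvesB.GenusLib
import Groth.Prelude.Def_CurvBase

/-!
# `H^1` of the structure sheaf of a decomposed birational model

* `finrank_le_sum`: `X` proper of dimension `≤ 1` over `k`, `f : Y ⟶ X` finite, `Y` reduced, closed immersion over a
  dense open of `X`; `κ i : C i ⟶ X` closed immersions and `e i` global functions on `Y` with sum `1` such that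
  `f` maps the locus `D(e i)` into `C i`: then `h¹(O_Y) ≤ ∑ h¹(O_{C i})`.
-/

set_option autoImplicit false
universe u
open CategoryTheory CategoryTheory.Limits AlgebraicGeometry Opposite TopologicalSpace

namespace Groth.Agent.Models.H36.H1Sum

open Groth.Agent.CurvesB

variable {X Y : Scheme.{u}}

theorem tw_nat (f : Y ⟶ X) (e : Γ(Y, ⊤)) {U V : X.Opens} (i : V ⟶ U) (s : Γ(X, U)) :
    Y.presheaf.map (homOfLE (le_top : f ⁻¹ᵁ V ≤ ⊤)).op e * (f.app V).hom (X.presheaf.map i.op s) =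
      Y.presheaf.map ((Opens.map f.base).map i).op
        (Y.presheaf.map (homOfLE (le_top : f ⁻¹ᵁ U ≤ ⊤)).op e * (f.app U).hom s) := by
  rw [map_mul]
  congr 1
  · rw [← ConcreteCategory.comp_apply, ← Functor.map_comp]
    rfl
  · exact congr($(f.naturality i.op) s)

theorem tw_lin (f : Y ⟶ X) (e : Γ(Y, ⊤)) {U : X.Opens} (r s : Γ(X, U)) :
    Y.presheaf.map (homOfLE (le_top : f ⁻¹ᵁ U ≤ ⊤)).op e * (f.app U).hom (r * s) =
      (f.app U).hom r * (Y.presheaf.map (homOfLE (le_top : f ⁻¹ᵁ U ≤ ⊤)).op e * (f.app U).hom s) := by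
  rw [map_mul]
  ring

/-- The morphism `t ↦ e · f^♯(t)` from `O_X` to `f_* O_Y`. -/
noncomputable def twUnit (f : Y ⟶ X) (e : Γ(Y, ⊤)) :
    Coh.structureModule X ⟶ (Coh.push f).obj (Coh.structureModule Y) :=
  ⟨PresheafOfModules.homMk
    { app := fun U => AddCommGrpCat.ofHom ((AddMonoidHom.mulLeft
        (Y.presheaf.map (homOfLE (le_top : f ⁻¹ᵁ U.unop ≤ ⊤)).op e : Γ(Y, f ⁻¹ᵁ U.unop))).comp
        ((f.app U.unop).hom : Γ(X, U.unop) →+* Γ(Y, f ⁻¹ᵁ U.unop)).toAddMonoidHom)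
      naturality := fun U V i => by
        ext s
        exact tw_nat f e i.unop s }
    (fun U r s => tw_lin f e (U := U.unop) r s)⟩

theorem twUnit_app (f : Y ⟶ X) (e : Γ(Y, ⊤)) (U : X.Opens) (t : Γ(X, U)) :
    (twUnit f e).app U t =
      (Y.presheaf.map (homOfLE (le_top : f ⁻¹ᵁ U ≤ ⊤)).op e * (f.app U).hom t : Γ(Y, f ⁻¹ᵁ U)) := rfl

theorem unitToPush_app (f : Y ⟶ X) (U : X.Opens) (t : Γ(X, U)) :
    (ClSub.unitToPush f).app U t = (f.app U).hom t := rfl

theorem locSurj_unitToPush {C : Scheme.{u}} (κ : C ⟶ X) [IsClosedImmersion κ] :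
    CohqA.H1Lift.LocSurj (ClSub.unitToPush κ) :=
  CohqA.H1Lift.locSurj_of_affine _ fun U => κ.app_surjective U.1 U.2

theorem epi_unitToPush {C : Scheme.{u}} (κ : C ⟶ X) [IsClosedImmersion κ] :
    Epi (ClSub.unitToPush κ) := by
  have h := CohqA.H1Lift.epi_toAb_of_locSurj (ClSub.unitToPush κ) (locSurj_unitToPush κ)
  exact (SheafOfModules.toSheaf X.ringCatSheaf).epi_of_epi_map h

/-- If `f` maps `D(e)` into the closed subscheme `C` then `t ↦ e · f^♯(t)` factors through `O_C`. -/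
theorem exists_factor {C : Scheme.{u}} (f : Y ⟶ X) (κ : C ⟶ X) [IsClosedImmersion κ] [IsReduced Y]
    (e : Γ(Y, ⊤)) (he : ∀ y ∈ Y.basicOpen e, f y ∈ Set.range κ) :
    ∃ φ : (Coh.push κ).obj (Coh.structureModule C) ⟶
      (Coh.push f).obj (Coh.structureModule Y),
      ClSub.unitToPush κ ≫ φ = twUnit f e := by
  have hepi := epi_unitToPush κ
  refine ⟨Abelian.epiDesc (ClSub.unitToPush κ) (twUnit f e) ?_, Abelian.comp_epiDesc _ _ _⟩
  ext V s
  set t : Γ(X, V) := (kernel.ι (ClSub.unitToPush κ)).app V s with ht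
  have h0 : (ClSub.unitToPush κ).app V t = 0 := by
    have h1 : (kernel.ι (ClSub.unitToPush κ) ≫ ClSub.unitToPush κ).app V s = 0 := by
      rw [kernel.condition]; rfl
    exact h1
  rw [unitToPush_app] at h0
  change (twUnit f e).app V t = 0
  rw [twUnit_app]
  refine (basicOpen_eq_bot_iff _).1 ?_
  rw [eq_bot_iff]
  intro y hy
  rw [Scheme.basicOpen_mul, Scheme.basicOpen_res] at hy
  obtain ⟨⟨-, hy1⟩, hy2⟩ := hy
  have hy3 : f y ∈ X.basicOpen t := by
    have h2 := Scheme.preimage_basicOpen f t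
    have h3 : y ∈ f ⁻¹ᵁ (X.basicOpen t) := by rw [h2]; exact hy2
    exact h3
  obtain ⟨c, hc⟩ := he y hy1
  have h4 : c ∈ κ ⁻¹ᵁ (X.basicOpen t) := by
    change κ c ∈ X.basicOpen t
    rw [hc]; exact hy3
  rw [Scheme.preimage_basicOpen κ t] at h4
  have h5 : (κ.app V).hom t = (0 : Γ(C, κ ⁻¹ᵁ V)) := h0
  have h6 : C.basicOpen ((κ.app V).hom t) = ⊥ := by rw [h5, Scheme.basicOpen_zero]
  have h7 : c ∈ (⊥ : C.Opens) := by rw [← h6]; exact h4
  exact h7

section Abstract

open GenSurj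

theorem H_map_sum {F G : Sh X} {ι : Type*} (s : Finset ι) (a : ι → (F ⟶ G)) (n : ℕ) (x : Sheaf.H F n) :
    Sheaf.H.map (∑ i ∈ s, a i) n x = ∑ i ∈ s, Sheaf.H.map (a i) n x := by
  classical
  induction s using Finset.induction_on with
  | empty =>
    rw [Finset.sum_empty, Finset.sum_empty]
    exact congr($((Sheaf.functorH _ n).map_zero F G) x)
  | insert i s his ih =>
    rw [Finset.sum_insert his, Finset.sum_insert his, ← ih, Sheaf.H.map_add_apply]

theorem exists_desc {n : ℕ} {F : Fin n → Sh X} {S G : Sh X} (Φ : S ⟶ G) (π : ∀ i, S ⟶ F i) (a : ∀ i, F i ⟶ G)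
    (hΦ : Φ = ∑ i, π i ≫ a i) (d : ℕ) (hs : Function.Surjective (Sheaf.H.map.{u} Φ d)) (y : Sheaf.H.{u} G d) :
    ∃ x : ∀ i, Sheaf.H.{u} (F i) d, ∑ i, Sheaf.H.map (a i) d (x i) = y := by
  obtain ⟨x, rfl⟩ := hs y
  refine ⟨fun i => Sheaf.H.map (π i) d x, ?_⟩
  rw [hΦ, H_map_sum]
  exact Finset.sum_congr rfl fun i _ => (Sheaf.H.map_comp_apply _ _ _).symm

theorem finrank_le_of_add (k : Type u) [Field k] {n : ℕ} (V : Fin n → Type u) [∀ i, AddCommGroup (V i)]
    [∀ i, Module k (V i)] (hfin : ∀ i, Module.Finite k (V i)) (W : Type u) [AddCommGroup W] [Module k W]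
    (φ : ∀ i, V i →+ W) (hlin : ∀ i (t : k) (x : V i), φ i (t • x) = t • φ i x)
    (h : ∀ y, ∃ x : ∀ i, V i, ∑ i, φ i (x i) = y) :
    Module.finrank k W ≤ ∑ i, Module.finrank k (V i) := by
  let ψ : ∀ i, V i →ₗ[k] W := fun i => { φ i with map_smul' := hlin i }
  let L : (∀ i, V i) →ₗ[k] W := ∑ i, (ψ i).comp (LinearMap.proj i)
  have hL : Function.Surjective L := by
    intro y
    obtain ⟨x, rfl⟩ := h y
    refine ⟨x, ?_⟩
    rw [LinearMap.sum_apply]
    rfl
  refine (LinearMap.finrank_le_finrank_of_surjective hL).trans ?_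
  rw [Module.finrank_pi_fintype]

end Abstract

theorem modules_app_sum {M N : X.Modules} {ι : Type*} (s : Finset ι) (a : M ⟶ N) (V : X.Opens)
    (x : ι → Γ(M, V)) : a.app V (∑ i ∈ s, x i) = ∑ i ∈ s, a.app V (x i) := map_sum _ _ _

section Main

/-- Surjectivity on sections. -/
theorem desc_app_surjective (f : Y ⟶ X) (U : X.Opens) (hfU : IsClosedImmersion (f ∣_ U)) {n : ℕ}
    (C : Fin n → Scheme.{u}) (κ : ∀ i, C i ⟶ X) (e : Fin n → Γ(Y, ⊤)) (hsum : ∑ i, e i = 1)
    (φ : ∀ i, (Coh.push (κ i)).obj (Coh.structureModule (C i)) ⟶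
      (Coh.push f).obj (Coh.structureModule Y))
    (hφ : ∀ i, ClSub.unitToPush (κ i) ≫ φ i = twUnit f (e i)) (S : X.Modules)
    (j : ∀ i, (Coh.push (κ i)).obj (Coh.structureModule (C i)) ⟶ S)
    (Φ : S ⟶ (Coh.push f).obj (Coh.structureModule Y)) (hj : ∀ i, j i ≫ Φ = φ i)
    (V : X.Opens) (hV : IsAffineOpen V) (hVU : V ≤ U) : Function.Surjective (Φ.app V) := by
  intro s
  obtain ⟨t, ht⟩ := GenusLib.app_surjective f U hfU V hV hVU s
  refine ⟨∑ i, (j i).app V ((ClSub.unitToPush (κ i)).app V t), ?_⟩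
  rw [modules_app_sum]
  have h1 : ∀ i, Φ.app V ((j i).app V ((ClSub.unitToPush (κ i)).app V t)) =
      (twUnit f (e i)).app V t := by
    intro i
    rw [← hφ i]
    have h3 : Φ.app V ((j i).app V ((ClSub.unitToPush (κ i)).app V t)) =
      (j i ≫ Φ).app V ((ClSub.unitToPush (κ i)).app V t) := rfl
    rw [h3, hj i]
    rfl
  rw [Finset.sum_congr rfl fun i _ => h1 i]
  have h5 : (∑ i, Y.presheaf.map (homOfLE (le_top : f ⁻¹ᵁ V ≤ ⊤)).op (e i) * (f.app V).hom t : Γ(Y, f ⁻¹ᵁ V)) =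
      s := by
    rw [← Finset.sum_mul, ← map_sum, hsum, map_one, one_mul]
    exact ht
  exact h5

theorem isProper_aux (k : Type u) [Field k] [X.Over (Spec (CommRingCat.of k))]
    [IsProper (X ↘ (Spec (CommRingCat.of k)))] (C : Scheme.{u}) [C.Over (Spec (CommRingCat.of k))]
    (κ : C ⟶ X) [IsClosedImmersion κ]
    (hκ : κ ≫ (X ↘ (Spec (CommRingCat.of k))) = C ↘ (Spec (CommRingCat.of k))) :
     IsProper (C ↘ (Spec (CommRingCat.of k))) := by
    rw [← hκ]; infer_instance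

theorem finite_aux (k : Type u) [Field k] (C : Scheme.{u}) [C.Over (Spec (CommRingCat.of k))]
    [IsProper (C ↘ (Spec (CommRingCat.of k)))] :
    Module.Finite k (Coh.HH C (Coh.structureModule C) 1) :=
    S0002.result k C _ (UnitCoh.isCoh_structureModule C) 1

theorem equiv_aux (k : Type u) [Field k] (V W : Type u) [AddCommGroup V] [AddCommGroup W] [Module k V] [Module k W]
  (h : Module.Finite k V) (E : V ≃ₗ[k] W) : Module.Finite k W ∧ Module.finrank k V = Module.finrank k W :=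
  ⟨Module.Finite.equiv E, E.finrank_eq⟩

theorem equiv_aux' (k : Type u) [Field k] [X.Over (Spec (CommRingCat.of k))] (C : Scheme.{u}) [C.Over (Spec (CommRingCat.of k))]
    (κ : C ⟶ X) [IsClosedImmersion κ]
    (hκ : κ ≫ (X ↘ (Spec (CommRingCat.of k))) = C ↘ (Spec (CommRingCat.of k))) :
    Nonempty (Coh.HH C (Coh.structureModule C) 1 ≃ₗ[k] Coh.HH X ((Coh.push κ).obj (Coh.structureModule C)) 1) := by
  have hQ : Coh.IsQCoh (Coh.structureModule C) := (UnitCoh.isCoh_structureModule C).1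
  exact PushH1.exists_linearEquiv κ k hκ (Coh.structureModule C)

/-- Finiteness of `H¹` of the direct image. -/
theorem finite_push (k : Type u) [Field k] [X.Over (Spec (CommRingCat.of k))]
    [IsProper (X ↘ (Spec (CommRingCat.of k)))] (C : Scheme.{u}) [C.Over (Spec (CommRingCat.of k))]
    (κ : C ⟶ X) [IsClosedImmersion κ]
    (hκ : κ ≫ (X ↘ (Spec (CommRingCat.of k))) = C ↘ (Spec (CommRingCat.of k))) :
    Module.Finite k (Coh.HH X ((Coh.push κ).obj (Coh.structureModule C)) 1) ∧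
    Module.finrank k (Coh.HH C (Coh.structureModule C) 1) =
      Module.finrank k (Coh.HH X ((Coh.push κ).obj (Coh.structureModule C)) 1) := by
  obtain ⟨E⟩ := equiv_aux' k C κ hκ
  have h1 := isProper_aux k C κ hκ
  exact equiv_aux k _ _ (finite_aux k C) E

/-- The core of the decomposition bound for arbitrary modules. -/
theorem finrank_le (k : Type u) [Field k] [X.Over (Spec (CommRingCat.of k))] [IsNoetherian X]
    (hdim : topologicalKrullDim X ≤ 1) (U : X.Opens) (hU : Dense (U : Set X)) {n : ℕ}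
    (M : Fin n → X.Modules) (N : X.Modules) (φ : ∀ i, M i ⟶ N)
    (hfin : ∀ i, Module.Finite k (Coh.HH X (M i) 1))
    (hsec : ∀ (S : X.Modules) (j : ∀ i, M i ⟶ S) (Φ : S ⟶ N), (∀ i, j i ≫ Φ = φ i) →
      ∀ V : X.Opens, IsAffineOpen V → V ≤ U → Function.Surjective (Φ.app V)) :
    Module.finrank k (Coh.HH X N 1) ≤ ∑ i, Module.finrank k (Coh.HH X (M i) 1) := by
  classical
  have hbi : HasFiniteBiproducts X.Modules := Abelian.hasFiniteBiproducts
  let Φ : (⨁ M) ⟶ N := biproduct.desc φ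
  have hsurj : Function.Surjective
      (Sheaf.H.map.{u} ((SheafOfModules.toSheaf X.ringCatSheaf).map Φ) 1) :=
    GenSurj.h1_map_surjective hdim U hU _
      (hsec (⨁ M) (biproduct.ι M) Φ (fun i => biproduct.ι_desc φ i))
  have hΦ : (SheafOfModules.toSheaf X.ringCatSheaf).map Φ =
      ∑ i, (SheafOfModules.toSheaf X.ringCatSheaf).map (biproduct.π M i) ≫
        (SheafOfModules.toSheaf X.ringCatSheaf).map (φ i) := by
    have h1 : Φ = ∑ i, biproduct.π M i ≫ φ i := biproduct.desc_eq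
    have h2 : (SheafOfModules.toSheaf X.ringCatSheaf).map (∑ i, biproduct.π M i ≫ φ i) =
      ∑ i, (SheafOfModules.toSheaf X.ringCatSheaf).map (biproduct.π M i ≫ φ i) := Functor.map_sum _ _ _
    exact (congrArg _ h1).trans (h2.trans (Finset.sum_congr rfl fun i _ => Functor.map_comp _ _ _))
  exact finrank_le_of_add k (fun i => Coh.HH X (M i) 1) hfin (Coh.HH X N 1)
    (fun i => Sheaf.H.map ((SheafOfModules.toSheaf X.ringCatSheaf).map (φ i)) 1)
    (fun i => (GenusLib.hmapₗ k (φ i) 1).map_smul')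
    (exists_desc _ _ _ hΦ 1 hsurj)

theorem equiv_aux'' (k : Type u) [Field k] [X.Over (Spec (CommRingCat.of k))]
    [Y.Over (Spec (CommRingCat.of k))] (f : Y ⟶ X) [IsFinite f]
    (hf : f ≫ (X ↘ (Spec (CommRingCat.of k))) = Y ↘ (Spec (CommRingCat.of k))) :
    Nonempty (Coh.HH Y (Coh.structureModule Y) 1 ≃ₗ[k] Coh.HH X ((Coh.push f).obj (Coh.structureModule Y)) 1) := by
  have hQ : Coh.IsQCoh (Coh.structureModule Y) := (UnitCoh.isCoh_structureModule Y).1
  exact PushH1.exists_linearEquiv f k hf (Coh.structureModule Y)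

theorem final_aux (k : Type u) [Field k] {n : ℕ} (V W : Type u) [AddCommGroup V] [AddCommGroup W] [Module k V]
    [Module k W] (A B : Fin n → Type u) [∀ i, AddCommGroup (A i)] [∀ i, Module k (A i)]
    [∀ i, AddCommGroup (B i)] [∀ i, Module k (B i)] (E : V ≃ₗ[k] W)
    (key : Module.finrank k W ≤ ∑ i, Module.finrank k (B i))
    (h : ∀ i, Module.finrank k (A i) = Module.finrank k (B i)) :
    Module.finrank k V ≤ ∑ i, Module.finrank k (A i) := by
  rw [E.finrank_eq, Finset.sum_congr rfl fun i _ => h i]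
  exact key

/-- **Decomposition bound for `h¹`**. -/
theorem genus_le_sum (k : Type u) [Field k] [X.Over (Spec (CommRingCat.of k))]
    [Y.Over (Spec (CommRingCat.of k))] [IsProper (X ↘ (Spec (CommRingCat.of k)))]
    (hdim : topologicalKrullDim X ≤ 1) (f : Y ⟶ X) [IsFinite f]
    (hf : f ≫ (X ↘ (Spec (CommRingCat.of k))) = Y ↘ (Spec (CommRingCat.of k))) [IsReduced Y]
    (U : X.Opens) (hU : Dense (U : Set X)) (hfU : IsClosedImmersion (f ∣_ U))
    {n : ℕ} (C : Fin n → Scheme.{u}) [∀ i, (C i).Over (Spec (CommRingCat.of k))]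
    (κ : ∀ i, C i ⟶ X) [∀ i, IsClosedImmersion (κ i)]
    (hκ : ∀ i, κ i ≫ (X ↘ (Spec (CommRingCat.of k))) = (C i) ↘ (Spec (CommRingCat.of k)))
    (e : Fin n → Γ(Y, ⊤)) (hsum : ∑ i, e i = 1)
    (he : ∀ i, ∀ y ∈ Y.basicOpen (e i), f y ∈ Set.range (κ i)) :
    Curv2.genus k Y ≤ ∑ i, Curv2.genus k (C i) := by
  have hN : IsNoetherian X := GenusLib.isNoetherian_of_proper (X ↘ (Spec (CommRingCat.of k)))
  obtain ⟨E⟩ := equiv_aux'' k f hf
  choose φ hφ using fun i => exists_factor f (κ i) (e i) (he i)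
  have key := finrank_le k hdim U hU (fun i => (Coh.push (κ i)).obj (Coh.structureModule (C i)))
    ((Coh.push f).obj (Coh.structureModule Y)) φ (fun i => (finite_push k (C i) (κ i) (hκ i)).1)
    (fun S j Φ hj V hV hVU => desc_app_surjective f U hfU C κ e hsum φ hφ S j Φ hj V hV hVU)
  exact final_aux k _ _ _ _ E key fun i => (finite_push k (C i) (κ i) (hκ i)).2

end Main

end Groth.Agent.Models.H36.H1Sum
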