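import Groth.Agent.Models.H36.NormRel
import Groth.Agent.Models.H36.H1Sum
import Groth.Agent.CurvesB.VABaseChange
import Groth.Agent.CurvesB.FibreBC
import Groth.Agent.CurvesC.NormSections
import Groth.Agent.Flat2G.ProperDim
import Groth.Prelude.Def_ModelsG

/-!
# A smooth model of the reduced geometric fibre of a reduced proper curve

`exists_smooth_model`: `Y` reduced and proper over `k` with irreducible components `c i` of dimension one, `K`
algebraically closed over `k`, `Z = (Y_K)_red`. Then `Z` has a finite model `Z'`, smooth over `K` and isomorphic to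
`Z` over a dense open, with `h¹(O_{Z'}) ≤ ∑ h¹(O_{c i})`.
-/

set_option autoImplicit false
universe u
open CategoryTheory CategoryTheory.Limits AlgebraicGeometry TopologicalSpace

namespace Groth.Agent.Models.H36.NormModel

open Groth.Agent.CurvesC

/-- If all the irreducible components are ranges of closed immersions of schemes of dimension one then the dimension
is at most one. -/
theorem topologicalKrullDim_le_one {Y : Scheme.{u}} {n : ℕ} (c : Fin n → Scheme.{u}) (ι : ∀ i, c i ⟶ Y)
    [∀ i, IsClosedImmersion (ι i)] (hdim : ∀ i, topologicalKrullDim (c i) = 1)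
    (hcomp : Set.range (fun i => Set.range (ι i)) = irreducibleComponents Y) :
    topologicalKrullDim Y ≤ 1 := by
  rcases isEmpty_or_nonempty Y with hY | hY
  · have h1 : topologicalKrullDim Y = ⊥ := by
      have : IsEmpty (IrreducibleCloseds Y) := ⟨fun Z => by
        obtain ⟨y, -⟩ := Z.2.1
        exact hY.elim y⟩
      exact Order.krullDim_eq_bot
    rw [h1]
    exact bot_le
  · refine (Groth.Agent.CurvesB.FibreBC.topologicalKrullDim_eq_one (T := Y) fun Z hZ => ?_).le
    rw [← hcomp] at hZ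
    obtain ⟨i, rfl⟩ := hZ
    rw [← hdim i]
    exact (IsHomeomorph.topologicalKrullDim_eq _
      (ι i).isClosedEmbedding.isEmbedding.toHomeomorph.isHomeomorph).symm

/-- The open subset of the target of a surjective closed immersion corresponding to an open subset of the source. -/
theorem exists_opens {Z P : Scheme.{u}} (r : Z ⟶ P) [IsClosedImmersion r] [Surjective r] (U : Z.Opens)
    (hU : Dense (U : Set Z)) : ∃ U' : P.Opens, r ⁻¹ᵁ U' = U ∧ Dense (U' : Set P) := by
  refine ⟨⟨(r '' ((U : Set Z)ᶜ))ᶜ, (r.isClosedEmbedding.isClosedMap _ U.2.isClosed_compl).isOpen_compl⟩, ?_, ?_⟩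
  · ext z
    change ¬ (r z ∈ r '' ((U : Set Z)ᶜ)) ↔ z ∈ (U : Set Z)
    rw [r.isClosedEmbedding.injective.mem_set_image, Set.mem_compl_iff, not_not]
  · refine (r.surjective.denseRange.dense_image r.continuous hU).mono ?_
    rintro _ ⟨z, hz, rfl⟩
    change ¬ (r z ∈ r '' ((U : Set Z)ᶜ))
    rw [r.isClosedEmbedding.injective.mem_set_image]
    exact fun h => h hz

/-- Idempotents cutting out unions of connected components. -/
theorem exists_idempotents {Z' : Scheme.{u}} [NoetherianSpace Z'] (hZ' : ∀ z : Z', IsDomain (Z'.presheaf.stalk z))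
    {n : ℕ} (S : Fin n → Set Z')
    (hS : ∀ T ∈ irreducibleComponents (Z' : Type u), ∃ i, T ⊆ S i) :
    ∃ e : Fin n → Γ(Z', ⊤), ∑ i, e i = 1 ∧ ∀ i, ∀ z ∈ Z'.basicOpen (e i), z ∈ S i := by
  classical
  have hfin : Finite (irreducibleComponents (Z' : Type u)) := NoetherianSpace.finite_irreducibleComponents
  have := Fintype.ofFinite (irreducibleComponents (Z' : Type u))
  choose t ht using fun T : irreducibleComponents (Z' : Type u) => hS T.1 T.2
  refine ⟨fun i => ∑ T with t T = i, NormSections.idem hZ' T, ?_, ?_⟩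
  · rw [Finset.sum_fiberwise, NormSections.sum_idem hZ']
  · intro i z hz
    let T₀ : irreducibleComponents (Z' : Type u) :=
      ⟨irreducibleComponent z, irreducibleComponent_mem_irreducibleComponents z⟩
    have hz₀ : z ∈ NormSections.compOpens hZ' T₀ := mem_irreducibleComponent
    have h1 : Z'.presheaf.map (homOfLE le_top : NormSections.compOpens hZ' T₀ ⟶ ⊤).op
        (∑ T with t T = i, NormSections.idem hZ' T) = if t T₀ = i then 1 else 0 := by
      rw [map_sum]
      simp_rw [NormSections.idem_spec hZ']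
      rw [Finset.sum_ite_eq]
      simp
    have h2 : z ∈ Z'.basicOpen (Z'.presheaf.map (homOfLE le_top : NormSections.compOpens hZ' T₀ ⟶ ⊤).op
        (∑ T with t T = i, NormSections.idem hZ' T)) := by
      rw [Scheme.basicOpen_res]
      exact ⟨hz₀, hz⟩
    by_cases h : t T₀ = i
    · rw [← h]
      exact ht T₀ mem_irreducibleComponent
    · rw [h1, if_neg h, Scheme.basicOpen_zero] at h2
      exact h2.elim

section Comp

variable {k K : Type u} [Field k] [Field K] [Algebra k K] {Y C : Scheme.{u}} (f : Y ⟶ Spec (CommRingCat.of k))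
  (ι : C ⟶ Y)

/-- The morphism `C_K ⟶ Y_K`. -/
noncomputable def compMap : pullback (ι ≫ f) (Spec.map (CommRingCat.ofHom (algebraMap k K))) ⟶
    pullback f (Spec.map (CommRingCat.ofHom (algebraMap k K))) :=
  pullback.lift (pullback.fst _ _ ≫ ι) (pullback.snd _ _) (by rw [Category.assoc, pullback.condition])

theorem compMap_snd : compMap (K := K) f ι ≫ pullback.snd f _ = pullback.snd (ι ≫ f) _ := by
  unfold compMap
  rw [pullback.lift_snd]

theorem isPullback_compMap : IsPullback (compMap (K := K) f ι) (pullback.fst (ι ≫ f) _)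
    (pullback.fst f (Spec.map (CommRingCat.ofHom (algebraMap k K)))) ι := by
  have h1 : IsPullback (pullback.fst (ι ≫ f) (Spec.map (CommRingCat.ofHom (algebraMap k K))))
      (compMap (K := K) f ι) ι (pullback.fst f (Spec.map (CommRingCat.ofHom (algebraMap k K)))) := by
    refine IsPullback.of_bot ?_ ?_ (IsPullback.of_hasPullback f (Spec.map (CommRingCat.ofHom (algebraMap k K))))
    · rw [compMap_snd]
      exact IsPullback.of_hasPullback _ _
    · unfold compMap
      rw [pullback.lift_fst]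
  exact h1.flip

instance [IsClosedImmersion ι] : IsClosedImmersion (compMap (K := K) f ι) :=
  MorphismProperty.of_isPullback (isPullback_compMap f ι).flip inferInstance

theorem range_of_isPullback {A B C D : Scheme.{u}} {a : A ⟶ B} {b : A ⟶ C} {f : B ⟶ D} {g : C ⟶ D}
    (h : IsPullback a b f g) : Set.range a = f ⁻¹' Set.range g := by
  rw [← Scheme.Pullback.range_fst f g, ← h.isoPullback_hom_fst]
  have hs : Function.Surjective h.isoPullback.hom := h.isoPullback.hom.surjective
  have h1 : ⇑(h.isoPullback.hom ≫ pullback.fst f g) = ⇑(pullback.fst f g) ∘ ⇑h.isoPullback.hom := by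
    ext x
    exact Scheme.Hom.comp_apply _ _ x
  rw [h1, hs.range_comp]

theorem range_compMap : Set.range (compMap (K := K) f ι) =
    (pullback.fst f (Spec.map (CommRingCat.ofHom (algebraMap k K)))) ⁻¹' Set.range ι :=
  range_of_isPullback (isPullback_compMap f ι)

end Comp

/-- **[SSR-P3/G1]** General form: the bound for `h¹` is stated for arbitrary closed subschemes `D i` of `Y_K` whose
underlying sets contain the preimages of the components of `Y`. -/
theorem exists_smooth_model_aux (k : Type u) [Field k] (K : Type u) [Field K] [IsAlgClosed K] [Algebra k K]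
    (g' : Spec (CommRingCat.of K) ⟶ Spec (CommRingCat.of k))
    (hg' : g' = Spec.map (CommRingCat.ofHom (algebraMap k K)))
    (Y : Scheme.{u}) (f : Y ⟶ Spec (CommRingCat.of k)) [IsProper f] {n : ℕ} (c : Fin n → Scheme.{u})
    (ι : ∀ i, c i ⟶ Y) [∀ i, IsClosedImmersion (ι i)]
    (hdim : ∀ i, topologicalKrullDim (c i) = 1)
    (hcomp : Set.range (fun i => Set.range (ι i)) = irreducibleComponents Y)
    (Z : Scheme.{u}) (r : Z ⟶ pullback f g')
    [IsClosedImmersion r] [IsReduced Z] [Surjective r] :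
    ∃ (Z' : Scheme.{u}) (ν : Z' ⟶ Z), IsFinite ν ∧ Smooth (ν ≫ r ≫ pullback.snd f g') ∧
      (∃ U : Z.Opens, Dense (U : Set Z) ∧ Dense ((ν ⁻¹ᵁ U : Z'.Opens) : Set Z') ∧ IsIso (ν ∣_ U)) ∧
      topologicalKrullDim Z' ≤ 1 ∧
      ∀ (D : Fin n → Scheme.{u})
        (κ : ∀ i, D i ⟶ pullback f g')
        [∀ i, IsClosedImmersion (κ i)],
        (∀ i, (pullback.fst f g') ⁻¹' Set.range (ι i) ⊆
          Set.range (κ i)) →
        _root_.Models.curveGenus K Z' (ν ≫ r ≫ pullback.snd f g') ≤
          ∑ i, _root_.Models.curveGenus K (D i) (κ i ≫ pullback.snd f g') := by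
  classical
  have hY := topologicalKrullDim_le_one c ι hdim hcomp
  have sq : IsPullback (pullback.fst f g') (pullback.snd f g') f g' := IsPullback.of_hasPullback f g'
  have hYK : topologicalKrullDim (pullback f g' : Scheme.{u}) ≤ 1 := by
    rw [Flat2G.ProperDim.topologicalKrullDim_eq_of_isPullback_field (Field.toIsField k) (Field.toIsField K) f
      (pullback.snd f g') (pullback.fst f g') (CommRingCat.ofHom (algebraMap k K)) (hg' ▸ sq)]
    exact hY
  have hp : IsProper (pullback.snd f g') := inferInstance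
  have hZdim : topologicalKrullDim Z ≤ 1 := (r.isClosedEmbedding.isInducing.topologicalKrullDim_le).trans hYK
  have hZp : IsProper (r ≫ pullback.snd f g') := inferInstance
  have hZc : CompactSpace Z := QuasiCompact.compactSpace_of_compactSpace (r ≫ pullback.snd f g')
  obtain ⟨Z', ν, hν, hsm, hdimZ', U, hU, hU', hiso⟩ := NormRel.exists_smooth_model K (r ≫ pullback.snd f g') hZdim
  refine ⟨Z', ν, hν, hsm, ⟨U, hU, hU', hiso⟩, hdimZ', ?_⟩
  intro D κ hκ hrange
  -- the big open
  obtain ⟨V, hV, hVd⟩ := exists_opens r U hU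
  have hcl : IsClosedImmersion ((ν ≫ r) ∣_ V) := by
    subst hV
    have h1 : IsClosedImmersion (r ∣_ V) :=
      IsZariskiLocalAtTarget.restrict (P := @IsClosedImmersion) inferInstance V
    have h2 : IsClosedImmersion (ν ∣_ (r ⁻¹ᵁ V)) := inferInstance
    rw [morphismRestrict_comp]
    exact MorphismProperty.comp_mem _ _ _ h2 h1
  -- stalks of Z'
  let oZ' : Z'.Over (Spec (CommRingCat.of K)) := ⟨ν ≫ r ≫ pullback.snd f g'⟩
  have hsm' : Smooth (Z' ↘ (Spec (CommRingCat.of K))) := hsm
  have hdom : ∀ z : Z', IsDomain (Z'.presheaf.stalk z) := fun z => by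
    have := Groth.Agent.S1535.result K Z' z
    exact Groth.Agent.S0558.result _
  have hredZ' : IsReduced Z' := by
    have : ∀ z : Z', _root_.IsReduced (Z'.presheaf.stalk z) := fun z => by
      have := hdom z
      infer_instance
    exact isReduced_of_isReduced_stalk _
  have hZ'p : IsProper (Z' ↘ (Spec (CommRingCat.of K))) := inferInstanceAs (IsProper (ν ≫ r ≫ pullback.snd f g'))
  have hZ'n : IsNoetherian Z' := CurvesB.GenusLib.isNoetherian_of_proper (Z' ↘ (Spec (CommRingCat.of K)))
  -- the components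
  let oK : (pullback f g' : Scheme.{u}).Over (Spec (CommRingCat.of K)) := ⟨pullback.snd f g'⟩
  have hoK : IsProper ((pullback f g' : Scheme.{u}) ↘ (Spec (CommRingCat.of K))) := hp
  let oD : ∀ i, (D i).Over (Spec (CommRingCat.of K)) := fun i => ⟨κ i ≫ pullback.snd f g'⟩
  -- idempotents
  obtain ⟨e, he1, he2⟩ := exists_idempotents hdom (fun i => (ν ≫ r) ⁻¹' Set.range (κ i)) (by
    intro T hT
    have h1 : IsIrreducible ((ν ≫ r ≫ pullback.fst f g') '' T) :=
      hT.1.image _ (ν ≫ r ≫ pullback.fst f g').continuous.continuousOn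
    obtain ⟨W, hW, hTW⟩ := exists_mem_irreducibleComponents_subset_of_isIrreducible _ h1
    rw [← hcomp] at hW
    obtain ⟨i, rfl⟩ := hW
    refine ⟨i, fun z hz => hrange i ?_⟩
    have h2 : (ν ≫ r ≫ pullback.fst f g') z ∈ Set.range (ι i) := hTW ⟨z, hz, rfl⟩
    exact h2)
  have hfin : IsFinite (ν ≫ r) := inferInstance
  exact H1Sum.genus_le_sum K hYK (ν ≫ r) (Category.assoc _ _ _) V hVd hcl D κ (fun i => rfl) e he1 he2

/-- **[SSR-P3/G1]** General form: the bound for `h¹` is stated for arbitrary closed subschemes `D i` of `Y_K` whose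
underlying sets contain the preimages of the components of `Y`. -/
theorem exists_smooth_model_gen (k : Type u) [Field k] (K : Type u) [Field K] [IsAlgClosed K] [Algebra k K]
    (Y : Scheme.{u}) (f : Y ⟶ Spec (CommRingCat.of k)) [IsProper f] {n : ℕ} (c : Fin n → Scheme.{u})
    (ι : ∀ i, c i ⟶ Y) [∀ i, IsClosedImmersion (ι i)]
    (hdim : ∀ i, topologicalKrullDim (c i) = 1)
    (hcomp : Set.range (fun i => Set.range (ι i)) = irreducibleComponents Y)
    (Z : Scheme.{u}) (r : Z ⟶ pullback f (Spec.map (CommRingCat.ofHom (algebraMap k K))))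
    [IsClosedImmersion r] [IsReduced Z] [Surjective r] :
    ∃ (Z' : Scheme.{u}) (ν : Z' ⟶ Z), IsFinite ν ∧ Smooth (ν ≫ r ≫ pullback.snd f _) ∧
      (∃ U : Z.Opens, Dense (U : Set Z) ∧ Dense ((ν ⁻¹ᵁ U : Z'.Opens) : Set Z') ∧ IsIso (ν ∣_ U)) ∧
      topologicalKrullDim Z' ≤ 1 ∧
      ∀ (D : Fin n → Scheme.{u})
        (κ : ∀ i, D i ⟶ pullback f (Spec.map (CommRingCat.ofHom (algebraMap k K))))
        [∀ i, IsClosedImmersion (κ i)],
        (∀ i, (pullback.fst f (Spec.map (CommRingCat.ofHom (algebraMap k K)))) ⁻¹' Set.range (ι i) ⊆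
          Set.range (κ i)) →
        _root_.Models.curveGenus K Z' (ν ≫ r ≫ pullback.snd f _) ≤
          ∑ i, _root_.Models.curveGenus K (D i) (κ i ≫ pullback.snd f _) :=
  exists_smooth_model_aux k K _ rfl Y f c ι hdim hcomp Z r

/-- **[SSR-G1]** refined form: `D i` any closed subscheme of `(c i)_K` with the same underlying space. -/
theorem exists_smooth_model_refined (k : Type u) [Field k] (K : Type u) [Field K] [IsAlgClosed K] [Algebra k K]
    (Y : Scheme.{u}) (f : Y ⟶ Spec (CommRingCat.of k)) [IsProper f] {n : ℕ} (c : Fin n → Scheme.{u})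
    (ι : ∀ i, c i ⟶ Y) [∀ i, IsClosedImmersion (ι i)]
    (hdim : ∀ i, topologicalKrullDim (c i) = 1)
    (hcomp : Set.range (fun i => Set.range (ι i)) = irreducibleComponents Y)
    (Z : Scheme.{u}) (r : Z ⟶ pullback f (Spec.map (CommRingCat.ofHom (algebraMap k K))))
    [IsClosedImmersion r] [IsReduced Z] [Surjective r] :
    ∃ (Z' : Scheme.{u}) (ν : Z' ⟶ Z), IsFinite ν ∧ Smooth (ν ≫ r ≫ pullback.snd f _) ∧
      (∃ U : Z.Opens, Dense (U : Set Z) ∧ Dense ((ν ⁻¹ᵁ U : Z'.Opens) : Set Z') ∧ IsIso (ν ∣_ U)) ∧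
      topologicalKrullDim Z' ≤ 1 ∧
      (∀ (D : Fin n → Scheme.{u})
        (ρ : ∀ i, D i ⟶ pullback (ι i ≫ f) (Spec.map (CommRingCat.ofHom (algebraMap k K))))
        [∀ i, IsClosedImmersion (ρ i)] [∀ i, Surjective (ρ i)],
        _root_.Models.curveGenus K Z' (ν ≫ r ≫ pullback.snd f _) ≤
          ∑ i, _root_.Models.curveGenus K (D i) (ρ i ≫ pullback.snd (ι i ≫ f) _)) ∧
      _root_.Models.curveGenus K Z' (ν ≫ r ≫ pullback.snd f _) ≤
        ∑ i, _root_.Models.curveGenus k (c i) (ι i ≫ f) := by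
  obtain ⟨Z', ν, hν, hsm, hU, hdim', H⟩ := exists_smooth_model_gen k K Y f c ι hdim hcomp Z r
  have key : ∀ (D : Fin n → Scheme.{u})
        (ρ : ∀ i, D i ⟶ pullback (ι i ≫ f) (Spec.map (CommRingCat.ofHom (algebraMap k K))))
        [∀ i, IsClosedImmersion (ρ i)] [∀ i, Surjective (ρ i)],
        _root_.Models.curveGenus K Z' (ν ≫ r ≫ pullback.snd f _) ≤
          ∑ i, _root_.Models.curveGenus K (D i) (ρ i ≫ pullback.snd (ι i ≫ f) _) := by
    intro D ρ hρ hρs
    have h := H D (fun i => ρ i ≫ compMap f (ι i)) (fun i => by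
      rw [← range_compMap]
      rintro _ ⟨x, rfl⟩
      obtain ⟨y, rfl⟩ := (ρ i).surjective x
      exact ⟨y, rfl⟩)
    simp only [Category.assoc, compMap_snd] at h
    exact h
  refine ⟨Z', ν, hν, hsm, hU, hdim', key, ?_⟩
  refine (key (fun i => pullback (ι i ≫ f) (Spec.map (CommRingCat.ofHom (algebraMap k K))))
    (fun i => 𝟙 _)).trans (Finset.sum_le_sum fun i _ => ?_)
  rw [Category.id_comp]
  let oP : (pullback (ι i ≫ f) (Spec.map (CommRingCat.ofHom (algebraMap k K))) : Scheme.{u}).Over
    (Spec (CommRingCat.of K)) := ⟨pullback.snd (ι i ≫ f) _⟩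
  let oc : (c i).Over (Spec (CommRingCat.of k)) := ⟨ι i ≫ f⟩
  have hoc : IsProper ((c i) ↘ (Spec (CommRingCat.of k))) := inferInstanceAs (IsProper (ι i ≫ f))
  have sqP : IsPullback (pullback.fst (ι i ≫ f) (Spec.map (CommRingCat.ofHom (algebraMap k K))))
      ((pullback (ι i ≫ f) (Spec.map (CommRingCat.ofHom (algebraMap k K))) : Scheme.{u}) ↘
        (Spec (CommRingCat.of K))) ((c i) ↘ (Spec (CommRingCat.of k)))
      (Spec.map (CommRingCat.ofHom (algebraMap k K))) := IsPullback.of_hasPullback _ _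
  exact (CurvesB.VABaseChange.genus_eq sqP).le

/-- **[SSR-P3]** -/
theorem exists_smooth_model (k : Type u) [Field k] (K : Type u) [Field K] [IsAlgClosed K] [Algebra k K]
    (Y : Scheme.{u}) (f : Y ⟶ Spec (CommRingCat.of k)) [IsProper f] {n : ℕ} (c : Fin n → Scheme.{u})
    (ι : ∀ i, c i ⟶ Y) [∀ i, IsClosedImmersion (ι i)]
    (hdim : ∀ i, topologicalKrullDim (c i) = 1)
    (hcomp : Set.range (fun i => Set.range (ι i)) = irreducibleComponents Y)
    (Z : Scheme.{u}) (r : Z ⟶ pullback f (Spec.map (CommRingCat.ofHom (algebraMap k K))))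
    [IsClosedImmersion r] [IsReduced Z] [Surjective r] :
    ∃ (Z' : Scheme.{u}) (ν : Z' ⟶ Z), IsFinite ν ∧ Smooth (ν ≫ r ≫ pullback.snd f _) ∧
      (∃ U : Z.Opens, Dense (U : Set Z) ∧ IsIso (ν ∣_ U)) ∧
      _root_.Models.curveGenus K Z' (ν ≫ r ≫ pullback.snd f _) ≤
        ∑ i, _root_.Models.curveGenus k (c i) (ι i ≫ f) := by
  obtain ⟨Z', ν, h1, h2, ⟨U, h3, -, h4⟩, -, -, h5⟩ := exists_smooth_model_refined k K Y f c ι hdim hcomp Z r
  exact ⟨Z', ν, h1, h2, ⟨U, h3, h4⟩, h5⟩

end Groth.Agent.Models.H36.NormModel
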