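import Groth.Agent.CurvesA.AffCurveGeom
import Groth.Agent.S0558
import Groth.Agent.S1535
import Groth.Agent.Ega1.ReducedSub
import Groth.Agent.Flat2G.ProperDim
import Mathlib.AlgebraicGeometry.Morphisms.IsIso

/-!
# A smooth finite birational model of a reduced curve over a perfect field

* `exists_smooth_model`: `Z` reduced, of finite type of dimension `≤ 1` over a perfect field `k`: there is a finite
  morphism `ν : Z' ⟶ Z` with `Z'` smooth over `k`, which is an isomorphism over a dense open of `Z`.
-/

set_option autoImplicit false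
universe u
open CategoryTheory CategoryTheory.Limits AlgebraicGeometry TopologicalSpace

namespace Groth.Agent.Models.H36.NormRel

open Groth.Agent.CurvesA.AffCurveGeom

/-- A separated morphism with a section which is a dense open immersion is an isomorphism. -/
theorem isIso_of_section {W P : Scheme.{u}} (i : W ⟶ P) (π : P ⟶ W) [IsSeparated π] [IsOpenImmersion i]
    [IsDominant i] (h : i ≫ π = 𝟙 W) : IsIso π := by
  have h1 : IsClosedImmersion (i ≫ π) := by rw [h]; infer_instance
  have h2 : IsClosedImmersion i := IsClosedImmersion.of_comp i π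
  have h3 : Function.Surjective i := by
    have h4 : IsClosed (Set.range i) := i.isClosedEmbedding.isClosed_range
    rw [← Set.range_eq_univ, ← h4.closure_eq]
    exact i.denseRange.closure_range
  have h5 : Surjective i := ⟨h3⟩
  have h6 : IsIso i := (isIso_iff_isOpenImmersion_and_surjective i).2 ⟨inferInstance, h5⟩
  have h7 : π = inv i := by rw [← cancel_epi i, h, IsIso.hom_inv_id]
  rw [h7]
  infer_instance

/-- A finite (separated) morphism `π` is an isomorphism over the range of an open immersion `j` which lifts to a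
dense open immersion. -/
theorem isIso_restrict {W P Z : Scheme.{u}} (i : W ⟶ P) (π : P ⟶ Z) (j : W ⟶ Z) [IsSeparated π]
    [IsOpenImmersion i] [IsOpenImmersion j] [IsDominant i] (h : i ≫ π = j) :
    IsIso (π ∣_ j.opensRange) := by
  let i' : j.opensRange.toScheme ⟶ (π ⁻¹ᵁ j.opensRange).toScheme :=
    IsOpenImmersion.lift (π ⁻¹ᵁ j.opensRange).ι (j.isoOpensRange.inv ≫ i) (by
      rintro _ ⟨x, rfl⟩
      rw [Scheme.Opens.range_ι]
      change π ((j.isoOpensRange.inv ≫ i) x) ∈ j.opensRange
      rw [← Scheme.Hom.comp_apply, Category.assoc, h, Scheme.Hom.isoOpensRange_inv_comp]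
      exact x.2)
  have hi' : i' ≫ (π ⁻¹ᵁ j.opensRange).ι = j.isoOpensRange.inv ≫ i := IsOpenImmersion.lift_fac _ _ _
  have h1 : IsOpenImmersion i' := by
    have : IsOpenImmersion (i' ≫ (π ⁻¹ᵁ j.opensRange).ι) := by rw [hi']; infer_instance
    exact IsOpenImmersion.of_comp i' (π ⁻¹ᵁ j.opensRange).ι
  have h2 : IsDominant i' := by
    constructor
    intro x
    rw [mem_closure_iff]
    intro o ho hxo
    obtain ⟨o', ho', rfl⟩ := isOpen_induced_iff.1 ho
    have hd := i.denseRange x.1
    rw [mem_closure_iff] at hd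
    obtain ⟨_, hz, ⟨w, rfl⟩⟩ := hd (o' ∩ (π ⁻¹ᵁ j.opensRange : P.Opens)) (ho'.inter (π ⁻¹ᵁ j.opensRange).2)
      ⟨hxo, x.2⟩
    refine ⟨i' (j.isoOpensRange.hom w), ?_, ⟨_, rfl⟩⟩
    change (π ⁻¹ᵁ j.opensRange).ι (i' (j.isoOpensRange.hom w)) ∈ o'
    rw [← Scheme.Hom.comp_apply, hi', ← Scheme.Hom.comp_apply, ← Category.assoc, Iso.hom_inv_id,
      Category.id_comp]
    exact hz.1
  refine isIso_of_section i' (π ∣_ j.opensRange) ?_
  rw [← cancel_mono j.opensRange.ι, Category.assoc, morphismRestrict_ι, ← Category.assoc, hi',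
    Category.assoc, h, Scheme.Hom.isoOpensRange_inv_comp, Category.id_comp]

variable (k : Type u) [Field k]

/-- A smooth open piece of a scheme of dimension `≤ 1` over a perfect field is a dense open
subscheme of a smooth scheme which is finite over the given scheme. -/
theorem exists_normalization [PerfectField k] {W Z : Scheme.{u}} (f : Z ⟶ Spec (CommRingCat.of k))
    [LocallyOfFiniteType f] [CompactSpace Z] (j : W ⟶ Z) [IsOpenImmersion j]
    [Smooth (j ≫ f)] (hdim : topologicalKrullDim Z ≤ 1) :
    ∃ (Z₁ : Scheme.{u}) (i : W ⟶ Z₁) (π : Z₁ ⟶ Z), IsOpenImmersion i ∧ IsDominant i ∧ IsFinite π ∧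
      i ≫ π = j ∧ Smooth (π ≫ f) ∧ topologicalKrullDim Z₁ ≤ 1 := by
  have hZ : IsLocallyNoetherian Z := LocallyOfFiniteType.isLocallyNoetherian f
  have hZn : IsNoetherian Z := {}
  have hWdim : topologicalKrullDim W ≤ 1 := (j.isOpenEmbedding.isInducing.topologicalKrullDim_le).trans hdim
  have hqc : QuasiCompact j := inferInstance
  have hqf : QuasiCompact f := (quasiCompact_iff_compactSpace f).2 inferInstance
  have hWreg : ∀ w : W, IsRegularLocalRing (W.presheaf.stalk w) := fun w => by
    let : W.Over (Spec (CommRingCat.of k)) := ⟨j ≫ f⟩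
    have : Smooth (W ↘ (Spec (CommRingCat.of k))) := inferInstanceAs (Smooth (j ≫ f))
    exact Groth.Agent.S1535.result k W w
  have hWred : IsReduced W := by
    have : ∀ w : W, _root_.IsReduced (W.presheaf.stalk w) := fun w => by
      have h1 := hWreg w
      have h2 : IsDomain (W.presheaf.stalk w) := Groth.Agent.S0558.result _
      infer_instance
    exact isReduced_of_isReduced_stalk _
  have hfin : IsFinite j.fromNormalization :=
    Groth.Agent.CurvesA.NormFinite.isFinite_fromNormalization j (fun U hU S _ _ _ _ =>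
      Groth.Agent.S0573.result Γ(Z, U) (isNagata_app k f U hU) S)
  let p := j.fromNormalization ≫ f
  have hp1 : LocallyOfFiniteType p := inferInstance
  have hp2 : QuasiCompact p := inferInstance
  have hi : IsOpenImmersion j.toNormalization := inferInstance
  have hdim' : topologicalKrullDim j.normalization ≤ 1 :=
    Groth.Agent.CurvesA.CurveNorm.topologicalKrullDim_le_one k p j.toNormalization hWdim
  have hreg : ∀ z : j.normalization, IsDomain (j.normalization.presheaf.stalk z) ∧
      IsRegularLocalRing (j.normalization.presheaf.stalk z) := by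
    intro z
    by_cases hz : z ∈ Set.range j.toNormalization
    · obtain ⟨w, rfl⟩ := hz
      have h1 := hWreg w
      have h2 : IsDomain (W.presheaf.stalk w) := Groth.Agent.S0558.result _
      let e : j.normalization.presheaf.stalk (j.toNormalization w) ≅ W.presheaf.stalk w :=
        asIso (j.toNormalization.stalkMap w)
      refine ⟨e.commRingCatIsoToRingEquiv.toMulEquiv.isDomain _, ?_⟩
      exact IsRegularLocalRing.of_ringEquiv e.symm.commRingCatIsoToRingEquiv
    · obtain ⟨U, hU, hzU, -⟩ := exists_isAffineOpen_mem_and_subset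
        (x := j.fromNormalization z) (U := ⊤) trivial
      obtain ⟨h1, h2⟩ := Groth.Agent.CurvesA.CurveNorm.exists_isDomain_stalk k p j.toNormalization hWdim
        (j.fromNormalization ⁻¹ᵁ U) (hU.preimage _)
        (Groth.Agent.CurvesA.NormFinite.isIntegrallyClosedIn_toNormalization j U hU) z hzU hz
      exact ⟨h1, inferInstance⟩
  have hred : IsReduced j.normalization := by
    have : ∀ z : j.normalization, _root_.IsReduced (j.normalization.presheaf.stalk z) := fun z => by
      have := (hreg z).1
      infer_instance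
    exact isReduced_of_isReduced_stalk _
  refine ⟨j.normalization, j.toNormalization, j.fromNormalization, hi, inferInstance, hfin,
    j.toNormalization_fromNormalization, ?_, hdim'⟩
  let : j.normalization.Over (Spec (CommRingCat.of k)) := ⟨p⟩
  have hp3 : LocallyOfFinitePresentation (j.normalization ↘ (Spec (CommRingCat.of k))) :=
    inferInstanceAs (LocallyOfFinitePresentation p)
  have h := (Groth.Agent.S1561.result k j.normalization).1
  have h' : p.smoothLocus = ⊤ := by
    rw [eq_top_iff]
    intro z _
    exact (h z).2 (hreg z).2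
  exact Scheme.Hom.smoothLocus_eq_top_iff.1 h'

/-- **Smooth finite birational model** of a reduced curve over a perfect field. -/
theorem exists_smooth_model [PerfectField k] {Z : Scheme.{u}} (f : Z ⟶ Spec (CommRingCat.of k))
    [LocallyOfFiniteType f] [CompactSpace Z] [IsReduced Z] (hdim : topologicalKrullDim Z ≤ 1) :
    ∃ (Z' : Scheme.{u}) (ν : Z' ⟶ Z), IsFinite ν ∧ Smooth (ν ≫ f) ∧ topologicalKrullDim Z' ≤ 1 ∧
      ∃ U : Z.Opens, Dense (U : Set Z) ∧ Dense ((ν ⁻¹ᵁ U : Z'.Opens) : Set Z') ∧ IsIso (ν ∣_ U) := by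
  have hZ : IsLocallyNoetherian Z := LocallyOfFiniteType.isLocallyNoetherian f
  have hfp : LocallyOfFinitePresentation f := inferInstance
  have hd : Dense (f.smoothLocus : Set Z) := f.dense_smoothLocus_of_perfectField
  have hs : Smooth (f.smoothLocus.ι ≫ f) := by
    rw [← Scheme.Hom.smoothLocus_eq_top_iff, ← Scheme.Hom.preimage_smoothLocus_eq, eq_top_iff]
    rintro ⟨x, hx⟩ -
    exact hx
  obtain ⟨Z', i, π, hi, hid, hπ, hiπ, hsm, hdim'⟩ := exists_normalization k f f.smoothLocus.ι hdim
  refine ⟨Z', π, hπ, hsm, hdim', f.smoothLocus, hd, ?_, ?_⟩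
  · refine i.denseRange.mono ?_
    rintro _ ⟨w, rfl⟩
    change π (i w) ∈ f.smoothLocus
    rw [← Scheme.Hom.comp_apply, hiπ]
    exact w.2
  · have h1 := isIso_restrict i π f.smoothLocus.ι hiπ
    rwa [Scheme.Opens.opensRange_ι] at h1

end Groth.Agent.Models.H36.NormRel
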