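import Groth.Agent.Models.H36.NormModel

/-!
# The smooth model of the reduced geometric fibre, in the form used by the CORE of semistable reduction
-/

set_option autoImplicit false
universe u
open CategoryTheory CategoryTheory.Limits AlgebraicGeometry TopologicalSpace

namespace Groth.Agent.Models.H36.NormShape

/-- **hNorm** -/
theorem exists_smooth_model (k : Type u) [Field k] (K : Type u) [Field K] [IsAlgClosed K] [Algebra k K]
    (Y : Scheme.{u}) (f : Y ⟶ Spec (CommRingCat.of k)) [IsProper f] {n : ℕ} (c : Fin n → Scheme.{u})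
    (ι : ∀ i, c i ⟶ Y) [∀ i, IsClosedImmersion (ι i)]
    (hdim : ∀ i, topologicalKrullDim (c i) = 1)
    (hcomp : Set.range (fun i => Set.range (ι i)) = irreducibleComponents Y)
    (D : Fin n → Scheme.{u})
    (ρ : ∀ i, D i ⟶ pullback (ι i ≫ f) (Spec.map (CommRingCat.ofHom (algebraMap k K))))
    [∀ i, IsClosedImmersion (ρ i)] [∀ i, Surjective (ρ i)]
    (Z : Scheme.{u}) (r : Z ⟶ pullback f (Spec.map (CommRingCat.ofHom (algebraMap k K))))
    [IsClosedImmersion r] [IsReduced Z] [Surjective r] :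
    ∃ (Z' : Scheme.{u}) (ν : Z' ⟶ Z) (U : Z.Opens), IsFinite ν ∧ Smooth (ν ≫ r ≫ pullback.snd f _) ∧
      Dense (U : Set Z) ∧ Dense ((ν ⁻¹ᵁ U : Z'.Opens) : Set Z') ∧ IsIso (ν ∣_ U) ∧
      _root_.Models.curveGenus K Z' (ν ≫ r ≫ pullback.snd f _) ≤
        ∑ i, _root_.Models.curveGenus K (D i) (ρ i ≫ pullback.snd _ _) := by
  obtain ⟨Z', ν, h1, h2, ⟨U, h3, h4, h5⟩, -, h6, -⟩ :=
    NormModel.exists_smooth_model_refined k K Y f c ι hdim hcomp Z r
  exact ⟨Z', ν, U, h1, h2, h3, h4, h5, h6 D ρ⟩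

end Groth.Agent.Models.H36.NormShape
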